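import Cfsg.Agent.Lib.Helper24.KleinFour
import Cfsg.Agent.Lib.Helper24.BlockPNilp
import Cfsg.Agent.Lib.Helper7.BlockFirst3
import Cfsg.Agent.S0942
import Cfsg.Agent.S0944
import Cfsg.Agent.S0947
import Cfsg.Agent.S0925

set_option autoImplicit false
set_option linter.style.haveILetI false
set_option linter.unusedSectionVars false
open Cfsg
open Cfsg.Agent.Lib.Helper7
open scoped ComplexConjugate

namespace Cfsg.Agent.Lib.Helper24

universe u
variable {G : Type u} [Group G] {M : Ideal AlgInt}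

/-- Klein four Sylow 2-subgroups and one class of involutions. -/
structure KleinHyp (G : Type u) [Group G] : Prop where
  ex : ∃ P : Sylow 2 G, Nat.card P = 4 ∧ ∀ x : P, x * x = 1
  hone : ∀ s t : G, orderOf s = 2 → orderOf t = 2 → IsConj s t

theorem orderOf_eq_two_of_sq {z : G} (h : z * z = 1) (h1 : z ≠ 1) : orderOf z = 2 := by
  have h2 : orderOf z ∣ 2 := orderOf_dvd_of_pow_eq_one (by rw [pow_two, h])
  rcases (Nat.dvd_prime Nat.prime_two).1 h2 with h3 | h3
  · exact absurd (orderOf_eq_one_iff.1 h3) h1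
  · exact h3

theorem KleinHyp.two_elt [Finite G] (h : KleinHyp G) {z : G} (hz : ∃ k : ℕ, orderOf z = 2 ^ k)
    (hz1 : z ≠ 1) : orderOf z = 2 ∧ ∃ P' : Sylow 2 G, z ∈ (P' : Subgroup G) ∧ Nat.card P' = 4 := by
  haveI : Fact (Nat.Prime 2) := ⟨Nat.prime_two⟩
  obtain ⟨P, hP4, hexp⟩ := h.ex
  have hZ : IsPGroup 2 (Subgroup.zpowers z) := isPGroup_zpowers hz
  obtain ⟨P', hP'⟩ := hZ.exists_le_sylow
  have hzP' : z ∈ (P' : Subgroup G) := hP' (Subgroup.mem_zpowers z)
  have hcard : Nat.card P' = 4 := by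
    rw [P'.card_eq_multiplicity, ← P.card_eq_multiplicity, hP4]
  refine ⟨?_, P', hzP', hcard⟩
  let e := Sylow.equiv P P'
  have h1 : (⟨z, hzP'⟩ : P') * ⟨z, hzP'⟩ = 1 := by
    have h2 : (⟨z, hzP'⟩ : P') = e (e.symm ⟨z, hzP'⟩) := (e.apply_symm_apply _).symm
    rw [h2, ← map_mul, hexp, map_one]
  exact orderOf_eq_two_of_sq (congrArg Subtype.val h1) hz1

theorem KleinHyp.exists_involution [Finite G] (h : KleinHyp G) : ∃ t : G, orderOf t = 2 := by
  obtain ⟨P, hP4, hexp⟩ := h.ex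
  haveI : Nontrivial P := by
    rw [← Finite.one_lt_card_iff_nontrivial, hP4]; norm_num
  obtain ⟨x, hx⟩ := exists_ne (1 : P)
  refine ⟨x, orderOf_eq_two_of_sq (congrArg Subtype.val (hexp x)) ?_⟩
  intro h1
  exact hx (Subtype.ext h1)

/-- the common value on involutions -/
theorem KleinHyp.exists_value [Finite G] (h : KleinHyp G) :
    ∃ n : IrrCharacter G → ℤ, ∀ (χ : IrrCharacter G) (z : G), orderOf z = 2 →
      (χ : G → ℂ) z = (n χ : ℂ) := by
  obtain ⟨t, ht⟩ := h.exists_involution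
  have h1 := fun χ : IrrCharacter G => Cfsg.Agent.S0944.result χ t ht
  choose n hn using h1
  refine ⟨n, ?_⟩
  intro χ z hz
  obtain ⟨x, hx⟩ := isConj_iff.1 (h.hone t z ht hz)
  rw [← hx, isClassFunction_irr χ, (hn χ).1]

theorem KleinHyp.centralizer [Finite G] (h : KleinHyp G) {z : G} (hz : orderOf z = 2) :
    (∃ k : ℕ, (pPrimeCore 2 (Subgroup.centralizer ({z} : Set G))).index = 2 ^ k) ∧
      (Nat.card (Subgroup.centralizer ({z} : Set G))).factorization 2 = 2 := by
  have hz1 : z ≠ 1 := by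
    rintro rfl
    simp at hz
  obtain ⟨-, P', hzP', hcard⟩ := h.two_elt ⟨1, by rw [hz, pow_one]⟩ hz1
  exact klein_centralizer P' hcard hzP' hz

/-- values of principal block characters on 2-singular elements -/
theorem KleinHyp.value_singular [Finite G] (h : KleinHyp G) (hM : IsPModular 2 M)
    {n : IrrCharacter G → ℤ}
    (hn : ∀ (χ : IrrCharacter G) (z : G), orderOf z = 2 → (χ : G → ℂ) z = (n χ : ℂ))
    {χ : IrrCharacter G} (hχ : χ ∈ principalBlock M G) {g : G} (hg : 2 ∣ orderOf g) :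
    (χ : G → ℂ) g = (n χ : ℂ) := by
  haveI : Fact (Nat.Prime 2) := ⟨Nat.prime_two⟩
  obtain ⟨z, y, rfl, hc, hzk, hy⟩ := exists_pPart Nat.prime_two g
  have hz1 : z ≠ 1 := by
    rintro rfl
    rw [one_mul] at hg
    exact hy hg
  obtain ⟨hz2, -⟩ := h.two_elt hzk hz1
  obtain ⟨⟨k, hk⟩, -⟩ := h.centralizer hz2
  have hyC : y ∈ Subgroup.centralizer ({z} : Set G) := by
    rw [Subgroup.mem_centralizer_singleton_iff]
    exact hc.eq.symm
  have hK := SC.pPrimeCore_mem (G := Subgroup.centralizer ({z} : Set G)) 2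
  haveI := hK.1
  have hy' : (⟨y, hyC⟩ : Subgroup.centralizer ({z} : Set G))
      ∈ pPrimeCore 2 (Subgroup.centralizer ({z} : Set G)) := by
    apply (regular_iff_mem_of_index Nat.prime_two _ hK.2 hk _).1
    rw [Subgroup.orderOf_mk]; exact hy
  have hv : y ∈ centralizerPPrimeCore 2 z := ⟨⟨y, hyC⟩, hy', rfl⟩
  rw [Cfsg.Agent.S0942.result 2 M hM z hzk y hv χ hχ, hn χ z hz2]

theorem KleinHyp.value_ne_zero [Finite G] (h : KleinHyp G) (hM : IsPModular 2 M)
    {n : IrrCharacter G → ℤ}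
    (hn : ∀ (χ : IrrCharacter G) (z : G), orderOf z = 2 → (χ : G → ℂ) z = (n χ : ℂ))
    {χ : IrrCharacter G} (hχ : χ ∈ principalBlock M G) : n χ ≠ 0 := by
  haveI := hM.2.1.isPrime
  intro h0
  have h1 := defect_zero_of_vanish Nat.prime_two χ (fun g hg => by rw [hn χ g hg, h0]; simp)
  have hdvd := charDegree_dvd_card χ
  have h2 : ¬ 2 ∣ Nat.card G / charDegree (χ : G → ℂ) := by
    intro hd
    have h3 : (Nat.card G / charDegree (χ : G → ℂ)).factorization 2 = 0 := by
      rw [Nat.factorization_div hdvd]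
      simp [h1]
    rcases (Nat.factorization_eq_zero_iff _ _).1 h3 with h4 | h4 | h4
    · exact h4 Nat.prime_two
    · exact h4 hd
    · have := Nat.div_pos (Nat.le_of_dvd Nat.card_pos hdvd) (charDegree_pos χ)
      omega
  have h3 := blockOf_eq_singleton_of_not_dvd hM χ h2
  have h4 : principalBlock M G = {χ} := by
    rw [isPBlock_eq_blockOf isPBlock_principalBlock hχ, h3]
  have h5 : oneIrr G ∈ ({χ} : Set (IrrCharacter G)) := h4 ▸ oneIrr_mem_principalBlock
  rw [Set.mem_singleton_iff] at h5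
  obtain ⟨t, ht⟩ := h.exists_involution
  have h6 := hn χ t ht
  rw [h0, ← h5] at h6
  have : (oneIrr G : G → ℂ) t = 1 := rfl
  rw [this] at h6
  simp at h6

theorem KleinHyp.value_one [Finite G] (h : KleinHyp G) {n : IrrCharacter G → ℤ}
    (hn : ∀ (χ : IrrCharacter G) (z : G), orderOf z = 2 → (χ : G → ℂ) z = (n χ : ℂ)) :
    n (oneIrr G) = 1 := by
  obtain ⟨t, ht⟩ := h.exists_involution
  have h6 := hn (oneIrr G) t ht
  have : (oneIrr G : G → ℂ) t = 1 := rfl
  rw [this] at h6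
  exact_mod_cast h6.symm

section counting
variable [Fintype (IrrCharacter G)] [DecidablePred (· ∈ principalBlock M G)]

theorem KleinHyp.sum_sq [Finite G] (h : KleinHyp G) (hM : IsPModular 2 M)
    {n : IrrCharacter G → ℤ}
    (hn : ∀ (χ : IrrCharacter G) (z : G), orderOf z = 2 → (χ : G → ℂ) z = (n χ : ℂ)) :
    ∑ χ ∈ Finset.univ.filter (· ∈ principalBlock M G), (n χ) ^ 2 = 4 := by
  haveI : Fact (Nat.Prime 2) := ⟨Nat.prime_two⟩
  obtain ⟨t, ht⟩ := h.exists_involution
  have ht1 : t ≠ 1 := by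
    rintro rfl
    simp at ht
  obtain ⟨hidx, hC2⟩ := h.centralizer ht
  have h1 := (Cfsg.Agent.S0947.result 2 M hM t ⟨1, by rw [ht, pow_one]⟩ ht1
    (1 : Subgroup.centralizer ({t} : Set G)) (by simp)).2 hidx
  rw [hC2, finsum_mem_def, finsum_eq_sum_of_fintype] at h1
  have h2 : ∀ ζ : IrrCharacter G, (principalBlock M G).indicator
      (fun ζ : IrrCharacter G =>
        ‖(ζ : G → ℂ) (t * ((1 : Subgroup.centralizer ({t} : Set G)) : G))‖ ^ 2) ζ
      = (((if ζ ∈ principalBlock M G then (n ζ) ^ 2 else 0 : ℤ)) : ℝ) := by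
    intro ζ
    by_cases hζ : ζ ∈ principalBlock M G
    · rw [Set.indicator_of_mem hζ, if_pos hζ, Subgroup.coe_one, mul_one, hn ζ t ht]
      push_cast
      rw [Complex.norm_intCast, sq_abs]
    · rw [Set.indicator_of_notMem hζ, if_neg hζ, Int.cast_zero]
  rw [Finset.sum_congr rfl (fun ζ _ => h2 ζ)] at h1
  rw [Finset.sum_filter]
  exact_mod_cast h1

theorem KleinHyp.value_eq [Finite G] (h : KleinHyp G) (hM : IsPModular 2 M)
    {n : IrrCharacter G → ℤ}
    (hn : ∀ (χ : IrrCharacter G) (z : G), orderOf z = 2 → (χ : G → ℂ) z = (n χ : ℂ))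
    {χ : IrrCharacter G} (hχ : χ ∈ principalBlock M G) : n χ = 1 ∨ n χ = -1 := by
  classical
  haveI := hM.2.1.isPrime
  have hs := h.sum_sq hM hn
  have h0 := h.value_ne_zero hM hn hχ
  have hχF : χ ∈ Finset.univ.filter (· ∈ principalBlock M G) := by simp [hχ]
  by_cases h1 : χ = oneIrr G
  · left; rw [h1]; exact h.value_one hn
  · have h2 : oneIrr G ∈ (Finset.univ.filter (· ∈ principalBlock M G)).erase χ := by
      rw [Finset.mem_erase]
      exact ⟨fun h' => h1 h'.symm, by simp [oneIrr_mem_principalBlock]⟩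
    rw [← Finset.add_sum_erase _ _ hχF] at hs
    have h3 : (n (oneIrr G)) ^ 2
        ≤ ∑ ψ ∈ (Finset.univ.filter (· ∈ principalBlock M G)).erase χ, (n ψ) ^ 2 :=
      Finset.single_le_sum (f := fun ψ => (n ψ) ^ 2) (fun _ _ => sq_nonneg _) h2
    rw [h.value_one hn] at h3
    have h4 : (n χ) ^ 2 ≤ 3 := by linarith
    have h5 : n χ < 2 := by nlinarith
    have h6 : -2 < n χ := by nlinarith
    omega

theorem KleinHyp.card_eq [Finite G] (h : KleinHyp G) (hM : IsPModular 2 M) :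
    (Finset.univ.filter (· ∈ principalBlock M G)).card = 4 := by
  obtain ⟨n, hn⟩ := h.exists_value
  have hs := h.sum_sq hM hn
  have h1 : ∑ χ ∈ Finset.univ.filter (· ∈ principalBlock M G), (n χ) ^ 2
      = ∑ _χ ∈ Finset.univ.filter (· ∈ principalBlock M G), (1 : ℤ) := by
    apply Finset.sum_congr rfl
    intro χ hχ
    rcases h.value_eq hM hn (Finset.mem_filter.1 hχ).2 with h2 | h2 <;> rw [h2] <;> norm_num
  rw [h1, Finset.sum_const, nsmul_eq_mul, mul_one] at hs
  exact_mod_cast hs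

theorem KleinHyp.orth [Finite G] (h : KleinHyp G) (hM : IsPModular 2 M)
    {n : IrrCharacter G → ℤ}
    (hn : ∀ (χ : IrrCharacter G) (z : G), orderOf z = 2 → (χ : G → ℂ) z = (n χ : ℂ))
    {y : G} (hy : ¬ 2 ∣ orderOf y) :
    ∑ χ ∈ Finset.univ.filter (· ∈ principalBlock M G), (n χ : ℂ) * (χ : G → ℂ) y = 0 := by
  haveI : Fact (Nat.Prime 2) := ⟨Nat.prime_two⟩
  obtain ⟨t, ht⟩ := h.exists_involution
  have ht1 : t ≠ 1 := by
    rintro rfl
    simp at ht
  have h1 := (Cfsg.Agent.S0925.result (G := G) 2 M hM).2 t y⁻¹ t 1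
    (isPPart_self Nat.prime_two (k := 1) (by rw [ht, pow_one]))
    ⟨y⁻¹, one_mul _, Commute.one_left _, ⟨0, by simp⟩, by rwa [orderOf_inv]⟩
    (fun hc => ht1 (isConj_one_left.1 hc)) (principalBlock M G) isPBlock_principalBlock
  rw [finsum_mem_eq_sum_indicator] at h1
  rw [Finset.sum_filter]
  refine Eq.trans ?_ h1
  apply Finset.sum_congr rfl
  intro χ _
  by_cases hχ : χ ∈ principalBlock M G
  · rw [if_pos hχ, Set.indicator_of_mem hχ, inv_inv, hn χ t ht]
  · rw [if_neg hχ, Set.indicator_of_notMem hχ]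

theorem KleinHyp.theta [Finite G] (h : KleinHyp G) (hM : IsPModular 2 M)
    {n : IrrCharacter G → ℤ}
    (hn : ∀ (χ : IrrCharacter G) (z : G), orderOf z = 2 → (χ : G → ℂ) z = (n χ : ℂ)) (g : G) :
    ∑ χ ∈ Finset.univ.filter (· ∈ principalBlock M G), (n χ : ℂ) * (χ : G → ℂ) g
      = if 2 ∣ orderOf g then 4 else 0 := by
  by_cases hg : 2 ∣ orderOf g
  · rw [if_pos hg]
    have hs := h.sum_sq hM hn
    have h1 : ∑ χ ∈ Finset.univ.filter (· ∈ principalBlock M G), (n χ : ℂ) * (χ : G → ℂ) g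
        = ((∑ χ ∈ Finset.univ.filter (· ∈ principalBlock M G), (n χ) ^ 2 : ℤ) : ℂ) := by
      push_cast
      apply Finset.sum_congr rfl
      intro χ hχ
      rw [h.value_singular hM hn (Finset.mem_filter.1 hχ).2 hg, pow_two]
    rw [h1, hs]
    norm_num
  · rw [if_neg hg]
    exact h.orth hM hn hg

theorem KleinHyp.card_singular [Fintype G] (h : KleinHyp G) (hM : IsPModular 2 M) :
    4 * (Finset.univ.filter (fun g : G => 2 ∣ orderOf g)).card = Nat.card G := by
  classical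
  haveI := hM.2.1.isPrime
  obtain ⟨n, hn⟩ := h.exists_value
  have hcard : (Nat.card G : ℂ) ≠ 0 := by exact_mod_cast Nat.card_pos.ne'
  have h1 : ∑ g : G, ∑ χ ∈ Finset.univ.filter (· ∈ principalBlock M G),
      (n χ : ℂ) * (χ : G → ℂ) g = 4 * ((Finset.univ.filter (fun g : G => 2 ∣ orderOf g)).card : ℂ) := by
    rw [Finset.sum_congr rfl (fun g _ => h.theta hM hn g), ← Finset.sum_filter, Finset.sum_const,
      nsmul_eq_mul, mul_comm]
  have h2 : ∀ χ : IrrCharacter G, ∑ g : G, (χ : G → ℂ) g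
      = if χ = oneIrr G then (Nat.card G : ℂ) else 0 := by
    intro χ
    have h3 := classInner_irr χ.2 (oneIrr G).2
    rw [classInner] at h3
    have h4 : ∑ g : G, (χ : G → ℂ) g * conj ((oneIrr G : G → ℂ) g) = ∑ g : G, (χ : G → ℂ) g := by
      apply Finset.sum_congr rfl
      intro g _
      have : (oneIrr G : G → ℂ) g = 1 := rfl
      rw [this, map_one, mul_one]
    rw [h4] at h3
    by_cases hχ : χ = oneIrr G
    · rw [if_pos hχ]
      rw [if_pos (congrArg Subtype.val hχ)] at h3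
      field_simp at h3
      exact h3
    · rw [if_neg hχ]
      rw [if_neg (fun h' => hχ (Subtype.ext h'))] at h3
      rcases mul_eq_zero.1 h3 with h5 | h5
      · exact absurd h5 (inv_ne_zero hcard)
      · exact h5
  rw [Finset.sum_comm] at h1
  have h3 : ∑ χ ∈ Finset.univ.filter (· ∈ principalBlock M G), ∑ g : G,
      (n χ : ℂ) * (χ : G → ℂ) g = (Nat.card G : ℂ) := by
    rw [Finset.sum_eq_single (oneIrr G)]
    · rw [← Finset.mul_sum, h2, if_pos rfl, h.value_one hn]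
      simp
    · intro χ _ hχ
      rw [← Finset.mul_sum, h2, if_neg hχ, mul_zero]
    · intro h'
      exact absurd (by simp [oneIrr_mem_principalBlock]) h'
  rw [h3] at h1
  exact_mod_cast h1.symm

end counting

theorem KleinHyp.mod_four [Finite G] (h : KleinHyp G) {n : IrrCharacter G → ℤ}
    (hn : ∀ (χ : IrrCharacter G) (z : G), orderOf z = 2 → (χ : G → ℂ) z = (n χ : ℂ))
    (χ : IrrCharacter G) : (4 : ℤ) ∣ (charDegree (χ : G → ℂ) : ℤ) - n χ := by
  classical
  obtain ⟨P, hP4, hexp⟩ := h.ex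
  haveI : Fintype (P : Subgroup G) := Fintype.ofFinite _
  obtain ⟨m, hm⟩ := classInner_char_nat
    (isCharacter_restrict (isCharacter_of_irr χ.2) (P : Subgroup G))
    (isCharacter_one (G := (P : Subgroup G)))
  rw [classInner, hP4] at hm
  have h1 : ∀ x : (P : Subgroup G), (χ : G → ℂ) x * conj (1 : ℂ)
      = (n χ : ℂ) + if x = 1 then ((χ : G → ℂ) 1 - (n χ : ℂ)) else 0 := by
    intro x
    by_cases hx : x = 1
    · rw [if_pos hx, hx]; simp
    · rw [if_neg hx, map_one, mul_one, add_zero]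
      apply hn
      exact orderOf_eq_two_of_sq (congrArg Subtype.val (hexp x)) (fun h' => hx (Subtype.ext h'))
  have hsum : ∑ x : (P : Subgroup G), (χ : G → ℂ) x * conj (1 : ℂ)
      = 4 * (n χ : ℂ) + ((charDegree (χ : G → ℂ) : ℂ) - (n χ : ℂ)) := by
    rw [Finset.sum_congr rfl (fun x _ => h1 x), Finset.sum_add_distrib, Finset.sum_const,
      Finset.card_univ, ← Nat.card_eq_fintype_card, hP4,
      Finset.sum_ite_eq' Finset.univ (1 : (P : Subgroup G)),
      if_pos (Finset.mem_univ _), ← charDegree_cast (isCharacter_of_irr χ.2)]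
    simp
  have hm' : ((4 : ℕ) : ℂ)⁻¹ * (4 * (n χ : ℂ) + ((charDegree (χ : G → ℂ) : ℂ) - (n χ : ℂ)))
      = (m : ℂ) := by
    rw [← hsum]; exact hm
  have h2 : ((charDegree (χ : G → ℂ) : ℤ) : ℂ) + 3 * (n χ : ℂ) = 4 * ((m : ℤ) : ℂ) := by
    push_cast
    rw [← hm']
    push_cast
    field_simp
    ring
  have h3 : (charDegree (χ : G → ℂ) : ℤ) + 3 * n χ = 4 * (m : ℤ) := by exact_mod_cast h2
  exact ⟨(m : ℤ) - n χ, by linarith⟩

end Cfsg.Agent.Lib.Helper24
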