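import Cfsg.Agent.Lib.Helper24.BlockGV

set_option autoImplicit false
set_option linter.style.haveILetI false
set_option linter.unusedSectionVars false
open Cfsg
open Cfsg.Agent.Lib.Helper7

namespace Cfsg.Agent.Lib.Helper24

universe u
variable {G : Type u} [Group G]

theorem ext_of_mem (H : Subgroup G) (θ : H → ℂ) {g : G} (hg : g ∈ H) :
    extendByZero H θ g = θ ⟨g, hg⟩ :=
  Subtype.val_injective.extend_apply θ 0 ⟨g, hg⟩

theorem ext_coe (H : Subgroup G) (θ : H → ℂ) (h : H) : extendByZero H θ (h : G) = θ h :=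
  Subtype.val_injective.extend_apply θ 0 h

theorem ext_of_not_mem (H : Subgroup G) (θ : H → ℂ) {g : G} (hg : g ∉ H) :
    extendByZero H θ g = 0 := by
  apply Function.extend_apply'
  rintro ⟨h, rfl⟩
  exact hg h.2

theorem sum_ext_mul [Fintype G] (H : Subgroup G) [Fintype H] (θ : H → ℂ) (F : G → ℂ) :
    ∑ g, extendByZero H θ g * F g = ∑ h : H, θ h * F h := by
  classical
  have h1 : ∑ h : H, θ h * F h = ∑ h : H, extendByZero H θ (h : G) * F (h : G) := by
    apply Finset.sum_congr rfl
    intro h _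
    rw [ext_coe]
  rw [h1]
  have h3 := Finset.sum_image (s := (Finset.univ : Finset H)) (g := fun h : H => (h : G))
    (f := fun g => extendByZero H θ g * F g) (fun a _ b _ hab => Subtype.ext hab)
  rw [← h3]
  symm
  apply Finset.sum_subset (Finset.subset_univ _)
  intro x _ hx
  have hxH : x ∉ H := by
    intro hm
    apply hx
    exact Finset.mem_image.2 ⟨⟨x, hm⟩, Finset.mem_univ _, rfl⟩
  rw [ext_of_not_mem H θ hxH, zero_mul]

theorem conv_ext_apply [Fintype G] (H : Subgroup G) [Fintype H] (a : H → ℂ) (F : G → ℂ) (x : G) :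
    conv (extendByZero H a) F x = ∑ h : H, a h * F ((h : G)⁻¹ * x) :=
  sum_ext_mul H a (fun g => F (g⁻¹ * x))

theorem conv_ext_ext [Fintype G] (H : Subgroup G) [Fintype H] (a c : H → ℂ) :
    conv (extendByZero H a) (extendByZero H c) = extendByZero H (conv a c) := by
  ext x
  rw [conv_ext_apply]
  by_cases hx : x ∈ H
  · rw [ext_of_mem H _ hx]
    apply Finset.sum_congr rfl
    intro h _
    rw [ext_of_mem H c (mul_mem (inv_mem h.2) hx)]
    rfl
  · rw [ext_of_not_mem H _ hx]
    apply Finset.sum_eq_zero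
    intro h _
    rw [ext_of_not_mem H c, mul_zero]
    intro hh
    apply hx
    have := mul_mem h.2 hh
    rwa [mul_inv_cancel_left] at this

theorem convPow_ext [Fintype G] [DecidableEq G] (H : Subgroup G) [Fintype H] (t : H → ℂ) (n : ℕ) :
    convPow (extendByZero H t) n = extendByZero H (convPow t n) := by
  induction n with
  | zero =>
    ext x
    simp only [convPow]
    by_cases hx : x ∈ H
    · rw [ext_of_mem H _ hx]
      by_cases h1 : x = 1
      · subst h1; simp
      · rw [if_neg h1, if_neg (fun h => h1 (congrArg Subtype.val h))]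
    · rw [ext_of_not_mem H _ hx, if_neg (fun h : x = 1 => hx (h ▸ H.one_mem))]
  | succ n ih =>
    show conv (convPow (extendByZero H t) n) (extendByZero H t) = _
    rw [ih, conv_ext_ext]
    rfl

theorem ext_conj (H : Subgroup G) {a : H → ℂ} (ha : IsClassFunction H a) {h : G} (hh : h ∈ H)
    (x : G) : extendByZero H a (h * x * h⁻¹) = extendByZero H a x := by
  by_cases hx : x ∈ H
  · rw [ext_of_mem H a hx, ext_of_mem H a (mul_mem (mul_mem hh hx) (inv_mem hh))]
    exact ha ⟨x, hx⟩ ⟨h, hh⟩
  · rw [ext_of_not_mem H a hx, ext_of_not_mem H a]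
    intro h2
    apply hx
    have := mul_mem (mul_mem (inv_mem hh) h2) hh
    have e : h⁻¹ * (h * x * h⁻¹) * h = x := by group
    rwa [e] at this

theorem conv_comm_of_class [Fintype G] {c : G → ℂ} (hc : IsClassFunction G c) (d : G → ℂ) :
    conv c d = conv d c := by
  ext x
  simp only [conv]
  apply Fintype.sum_equiv ((Equiv.inv G).trans (Equiv.mulRight x))
  intro g
  simp only [Equiv.trans_apply, Equiv.inv_apply, Equiv.coe_mulRight]
  have e : (g⁻¹ * x)⁻¹ * x = x⁻¹ * g * x⁻¹⁻¹ := by group
  rw [e, hc, mul_comm]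

theorem conv_conj [Fintype G] {a c : G → ℂ} {h : G} (ha : ∀ x, a (h * x * h⁻¹) = a x)
    (hc : ∀ x, c (h * x * h⁻¹) = c x) (x : G) : conv a c (h * x * h⁻¹) = conv a c x := by
  simp only [conv]
  symm
  apply Fintype.sum_equiv (MulAut.conj h).toEquiv
  intro g
  have e1 : (MulAut.conj h).toEquiv g = h * g * h⁻¹ := by simp
  rw [e1, ha g]
  congr 1
  rw [← hc (g⁻¹ * x)]
  congr 1
  group

end Cfsg.Agent.Lib.Helper24
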