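import Cfsg.Agent.Lib.Helper24.BlockNil

set_option autoImplicit false
set_option linter.style.haveILetI false
set_option linter.unusedSectionVars false
open Cfsg
open Cfsg.Agent.Lib.Helper7

namespace Cfsg.Agent.Lib.Helper24

universe u
variable {G : Type u} [Group G] [Fintype G] {M : Ideal AlgInt}

theorem isPPart_commute {p : ℕ} {g x : G} (h : IsPPart p g x) : x * g = g * x := by
  obtain ⟨y, rfl, hc, -, -⟩ := h
  have : x * y = y * x := hc
  rw [← mul_assoc, mul_assoc x y x, ← this, mul_assoc]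

theorem conj_zpow_eq {a b w : G} (h : a * w = w * b) (m : ℤ) : a ^ m * w = w * b ^ m := by
  have h1 : b = w⁻¹ * a * w := by rw [mul_assoc, h]; group
  have h2 : b ^ m = w⁻¹ * a ^ m * w := by
    rw [h1]
    have := conj_zpow (a := w⁻¹) (b := a) (i := m)
    rw [inv_inv] at this
    exact this
  rw [h2]; group

/-- Group-level vanishing theorem. -/
theorem sum_conj_eq_zero_of_fix [DecidableEq G] {p : ℕ} (hM : IsPModular p M) (y : G → ℂ)
    (hyR : ∀ g, MemLocalRing M (y g)) (hyy : conv y y = y) {a b u₀ : G}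
    (hya : ∀ x, y (a * x * a⁻¹) = y x) (ha : IsPPart p a u₀) (hb : IsPPart p b u₀)
    (hy0 : ∀ c, u₀ * c = c * u₀ → MemLocalIdeal M (y c)) :
    ∑ j, y (j * b * j⁻¹ * a⁻¹) = 0 := by
  let π : Equiv.Perm G := Equiv.mulLeft a * Equiv.mulRight b⁻¹
  have hcomm : Commute (Equiv.mulLeft a) (Equiv.mulRight b⁻¹) := by
    ext z; simp [mul_assoc]
  have hπk : ∀ (k : ℤ) (z : G), (π ^ k) z = a ^ k * z * (b⁻¹) ^ k := by
    intro k z
    simp only [π]
    rw [hcomm.mul_zpow, Equiv.zpow_mulLeft, Equiv.zpow_mulRight]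
    simp [mul_assoc]
  have hπ1 : ∀ z, π z = a * z * b⁻¹ := by
    intro z
    simp [π, mul_assoc]
  have hua := isPPart_commute ha
  have hub := isPPart_commute hb
  have hub' : u₀ * b⁻¹ = b⁻¹ * u₀ := by
    have : b⁻¹ * (u₀ * b) * b⁻¹ = b⁻¹ * (b * u₀) * b⁻¹ := by rw [hub]
    simpa [mul_assoc] using this.symm
  have key := sum_perm_eq_zero_of_fix hM π {w : G | u₀ * w = w * u₀}
    (by
      intro x
      simp only [Set.mem_ofPred_eq, hπ1]
      constructor
      · intro h
        have h1 : a * (u₀ * x) * b⁻¹ = a * (x * u₀) * b⁻¹ := by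
          calc a * (u₀ * x) * b⁻¹ = (u₀ * a) * x * b⁻¹ := by rw [hua]; simp only [mul_assoc]
            _ = u₀ * (a * x * b⁻¹) := by simp only [mul_assoc]
            _ = a * x * b⁻¹ * u₀ := h
            _ = a * x * (u₀ * b⁻¹) := by rw [hub']; simp only [mul_assoc]
            _ = a * (x * u₀) * b⁻¹ := by simp only [mul_assoc]
        exact mul_left_cancel (mul_right_cancel h1)
      · intro h
        calc u₀ * (a * x * b⁻¹) = (u₀ * a) * x * b⁻¹ := by simp only [mul_assoc]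
          _ = a * (u₀ * x) * b⁻¹ := by rw [hua]; simp only [mul_assoc]
          _ = a * x * (u₀ * b⁻¹) := by rw [h]; simp only [mul_assoc]
          _ = a * x * b⁻¹ * u₀ := by rw [hub']; simp only [mul_assoc])
    (by
      intro x hx k hk
      by_contra hpk
      apply hx
      obtain ⟨m, hm1, hm2⟩ := exists_zpow_eq_pPart hM.1 ha hb hpk
      rw [hπk, inv_zpow, mul_inv_eq_iff_eq_mul] at hk
      have := conj_zpow_eq hk m
      rw [hm1, hm2] at this
      exact this)
    (Lmat y)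
    (by rw [Lmat_mul, hyy])
    (fun i j => hyR _)
    (by
      intro i j
      simp only [Lmat, hπ1]
      have : a * i * b⁻¹ * (a * j * b⁻¹)⁻¹ = a * (i * j⁻¹) * a⁻¹ := by group
      rw [this, hya])
    (by
      intro i hi j hj
      simp only [Set.mem_ofPred_eq] at hi hj
      apply hy0
      have hj' : u₀ * j⁻¹ = j⁻¹ * u₀ := by
        have : j⁻¹ * (u₀ * j) * j⁻¹ = j⁻¹ * (j * u₀) * j⁻¹ := by rw [hj]
        simpa [mul_assoc] using this.symm
      rw [← mul_assoc, hi, mul_assoc, hj', mul_assoc])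
  rw [← key]
  apply Finset.sum_congr rfl
  intro j _
  simp only [Lmat, hπ1]
  congr 1
  group

/-- Group-level Brauer-map criterion. -/
theorem mem_ideal_of_nilpotent [DecidableEq G] {p : ℕ} (hM : IsPModular p M) (y s : G → ℂ)
    (hyR : ∀ g, MemLocalRing M (y g)) (hsR : ∀ g, MemLocalRing M (s g)) (hyy : conv y y = y)
    {u₀ : G} {e : ℕ} (hu₀ : orderOf u₀ = p ^ e)
    (hyu : ∀ x, y (u₀ * x * u₀⁻¹) = y x) (hsu : ∀ x, s (u₀ * x * u₀⁻¹) = s x)
    (n : ℕ) (hn : n ≠ 0) (hs : ∀ g, MemLocalIdeal M (convPow s n g))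
    (hys : ∀ c, u₀ * c = c * u₀ → y c = s c) :
    ∀ c, u₀ * c = c * u₀ → MemLocalIdeal M (y c) := by
  have hself : IsPPart p u₀ u₀ :=
    ⟨1, mul_one u₀, Commute.one_right u₀, ⟨e, hu₀⟩, by
      rw [orderOf_one]; exact fun h => hM.1.one_lt.ne' (Nat.dvd_one.1 h)⟩
  have huk : ∀ (k : ℤ) (z : G), (((MulAut.conj u₀).toEquiv : Equiv.Perm G) ^ k) z
      = u₀ ^ k * z * (u₀ ^ k)⁻¹ := by
    intro k z
    have h1 : ((MulAut.conj u₀).toEquiv : Equiv.Perm G)
        = Equiv.mulLeft u₀ * Equiv.mulRight u₀⁻¹ := by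
      ext w; simp [mul_assoc]
    have hcomm : Commute (Equiv.mulLeft u₀) (Equiv.mulRight u₀⁻¹) := by
      ext z; simp [mul_assoc]
    rw [h1, hcomm.mul_zpow, Equiv.zpow_mulLeft, Equiv.zpow_mulRight]
    simp [mul_assoc]
  have hinv : ∀ {j : G}, u₀ * j = j * u₀ → u₀ * j⁻¹ = j⁻¹ * u₀ := by
    intro j hj
    have : j⁻¹ * (u₀ * j) * j⁻¹ = j⁻¹ * (j * u₀) * j⁻¹ := by rw [hj]
    simpa [mul_assoc] using this.symm
  have key := corner_zero hM ((MulAut.conj u₀).toEquiv : Equiv.Perm G) {w : G | u₀ * w = w * u₀}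
    (by
      intro x hx
      simp only [Set.mem_ofPred_eq] at hx
      simp [hx])
    (by
      intro x hx k hk
      by_contra hpk
      apply hx
      obtain ⟨m, hm1, -⟩ := exists_zpow_eq_pPart hM.1 hself hself hpk
      rw [huk, mul_inv_eq_iff_eq_mul] at hk
      have := conj_zpow_eq hk m
      rw [hm1] at this
      exact this)
    (Lmat y) (Lmat s) (fun i j => hyR _) (fun i j => hsR _)
    (by
      intro i j
      simp only [Lmat, MulEquiv.toEquiv_eq_coe, EquivLike.coe_coe, MulAut.conj_apply]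
      have : u₀ * i * u₀⁻¹ * (u₀ * j * u₀⁻¹)⁻¹ = u₀ * (i * j⁻¹) * u₀⁻¹ := by group
      rw [this, hyu])
    (by
      intro i j
      simp only [Lmat, MulEquiv.toEquiv_eq_coe, EquivLike.coe_coe, MulAut.conj_apply]
      have : u₀ * i * u₀⁻¹ * (u₀ * j * u₀⁻¹)⁻¹ = u₀ * (i * j⁻¹) * u₀⁻¹ := by group
      rw [this, hsu])
    (by rw [Lmat_mul, hyy]) n hn
    (by
      intro i j
      rw [← Lmat_convPow]
      exact hs _)
    (by
      intro i hi j hj
      simp only [Set.mem_ofPred_eq] at hi hj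
      simp only [Lmat]
      apply hys
      rw [← mul_assoc, hi, mul_assoc, hinv hj, mul_assoc])
  intro c hc
  have := key c hc 1 (by simp)
  simpa [Lmat] using this

end Cfsg.Agent.Lib.Helper24
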