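import Cfsg.Agent.Lib.Helper24.BlockSection
import Cfsg.Agent.Lib.Helper24.BlockRank

set_option autoImplicit false
set_option linter.style.haveILetI false
set_option linter.unusedSectionVars false
open Cfsg
open Cfsg.Agent.Lib.Helper7
open scoped ComplexConjugate

namespace Cfsg.Agent.Lib.Helper24

universe u
variable {G : Type u} [Group G] {M : Ideal AlgInt} {p : ℕ}

/-- Transfer of linear relations valid on the `p`-regular elements through a block projection. -/
theorem blockPart_transfer [Fintype G] (hM : IsPModular p M) {A : Set (IrrCharacter G)}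
    (hA : IsBlockUnion M A) {ι κ : Type*} [Fintype ι] [Fintype κ] (a : ι → ℂ) (f : ι → G → ℂ)
    (b : κ → ℂ) (g : κ → G → ℂ)
    (h : ∀ c : G, ¬ p ∣ orderOf c → ∑ i, a i * f i c = ∑ j, b j * g j c)
    (y : G) (hy : ¬ p ∣ orderOf y) :
    ∑ i, a i * blockPart A (f i) y = ∑ j, b j * blockPart A (g j) y := by
  classical
  have hS := isSectionClosed_regular (G := G) hM.1
  have hF : ({x : G | ¬ p ∣ orderOf x} : Set G).indicator (∑ i, a i • f i)
      = ({x : G | ¬ p ∣ orderOf x} : Set G).indicator (∑ j, b j • g j) := by
    ext c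
    by_cases hc : p ∣ orderOf c
    · rw [Set.indicator_of_notMem (s := {x : G | ¬ p ∣ orderOf x}) (fun h => h hc),
        Set.indicator_of_notMem (s := {x : G | ¬ p ∣ orderOf x}) (fun h => h hc)]
    · rw [Set.indicator_of_mem (s := {x : G | ¬ p ∣ orderOf x}) hc,
        Set.indicator_of_mem (s := {x : G | ¬ p ∣ orderOf x}) hc]
      simpa using h c hc
  have h1 := congrFun (congrArg (blockPart A) hF) y
  rw [blockPart_indicator_union hM hA hS, blockPart_indicator_union hM hA hS,
    Set.indicator_of_mem (s := {x : G | ¬ p ∣ orderOf x}) hy,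
    Set.indicator_of_mem (s := {x : G | ¬ p ∣ orderOf x}) hy, blockPart_sum_smul,
    blockPart_sum_smul] at h1
  exact h1

theorem blockPart_irr [Fintype G] (A : Set (IrrCharacter G)) (ψ : IrrCharacter G) (g : G) :
    blockPart A (ψ : G → ℂ) g = A.indicator (fun ψ : IrrCharacter G => (ψ : G → ℂ) g) ψ := by
  classical
  haveI := Fintype.ofFinite (IrrCharacter G)
  by_cases hψ : ψ ∈ A
  · rw [blockPart_self hψ, Set.indicator_of_mem hψ]
  · rw [Set.indicator_of_notMem hψ, blockPart_apply]
    apply Finset.sum_eq_zero
    intro χ _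
    by_cases hχ : χ ∈ A
    · rw [Set.indicator_of_mem hχ, classInner_irr_ne ψ.2 χ.2, zero_mul]
      intro h
      exact hψ ((Subtype.ext h : ψ = χ) ▸ hχ)
    · rw [Set.indicator_of_notMem hχ]

/-- behaviour of block parts under `f ↦ conj (f (·⁻¹))` -/
theorem blockPart_conj_inv [Fintype G] (A : Set (IrrCharacter G)) (f : G → ℂ) (s : G) :
    blockPart A (fun c => conj (f c⁻¹)) s⁻¹ = conj (blockPart A f s) := by
  classical
  haveI := Fintype.ofFinite (IrrCharacter G)
  rw [blockPart_apply, blockPart_apply, map_sum]
  apply Finset.sum_congr rfl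
  intro ψ _
  by_cases hψ : ψ ∈ A
  · rw [Set.indicator_of_mem hψ, Set.indicator_of_mem hψ, map_mul,
      char_inv_eq_conj (isCharacter_of_irr ψ.2)]
    congr 1
    rw [classInner, classInner, map_mul, map_sum, map_inv₀, Complex.conj_natCast]
    congr 1
    apply Fintype.sum_equiv (Equiv.inv G)
    intro c
    rw [Equiv.inv_apply, map_mul, Complex.conj_conj, char_inv_eq_conj (isCharacter_of_irr ψ.2) c,
      ← char_inv_eq_conj (isCharacter_of_irr ψ.2) c]
  · rw [Set.indicator_of_notMem hψ, Set.indicator_of_notMem hψ, map_zero]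

theorem section_column [Fintype G] [Fintype (IrrCharacter G)] (hp : p.Prime) {x : G}
    [Fintype (IrrCharacter (Subgroup.centralizer ({x} : Set G)))]
    (hx : ∃ k : ℕ, orderOf x = p ^ k) (c y' : Subgroup.centralizer ({x} : Set G))
    (hc : ¬ p ∣ orderOf c) (hy' : ¬ p ∣ orderOf y') :
    ∑ χ : IrrCharacter G, conj ((χ : G → ℂ) (x * (y' : G))) * (χ : G → ℂ) (x * (c : G))
      = ∑ ψ : IrrCharacter (Subgroup.centralizer ({x} : Set G)),
        conj ((ψ : Subgroup.centralizer ({x} : Set G) → ℂ) y')
          * (ψ : Subgroup.centralizer ({x} : Set G) → ℂ) c := by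
  classical
  haveI := Fintype.ofFinite (Subgroup.centralizer ({x} : Set G))
  have e1 : ∑ χ : IrrCharacter G, conj ((χ : G → ℂ) (x * (y' : G))) * (χ : G → ℂ) (x * (c : G))
      = ∑ χ : IrrCharacter G, (χ : G → ℂ) (x * (c : G)) * conj ((χ : G → ℂ) (x * (y' : G))) :=
    Finset.sum_congr rfl fun χ _ => mul_comm _ _
  have e2 : ∑ ψ : IrrCharacter (Subgroup.centralizer ({x} : Set G)),
        conj ((ψ : Subgroup.centralizer ({x} : Set G) → ℂ) y')
          * (ψ : Subgroup.centralizer ({x} : Set G) → ℂ) c
      = ∑ ψ : IrrCharacter (Subgroup.centralizer ({x} : Set G)),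
        (ψ : Subgroup.centralizer ({x} : Set G) → ℂ) c
          * conj ((ψ : Subgroup.centralizer ({x} : Set G) → ℂ) y') :=
    Finset.sum_congr rfl fun ψ _ => mul_comm _ _
  rw [e1, e2, column_orthogonality, column_orthogonality]
  by_cases hconj : IsConj c y'
  · rw [if_pos hconj, if_pos ((isConj_section_iff hp hx c y' hc hy').2 hconj),
      card_centralizer_section hp hx c hc]
  · rw [if_neg hconj, if_neg (fun h => hconj ((isConj_section_iff hp hx c y' hc hy').1 h))]

/-- Norm relation for the `e`-parts of the shifted characters. -/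
theorem subsection_norm [Fintype G] [Fintype (IrrCharacter G)] (hM : IsPModular p M) {x : G}
    [Fintype (IrrCharacter (Subgroup.centralizer ({x} : Set G)))]
    (hx : ∃ k : ℕ, orderOf x = p ^ k)
    {e : Set (IrrCharacter (Subgroup.centralizer ({x} : Set G)))} (he : IsBlockUnion M e)
    (y : Subgroup.centralizer ({x} : Set G)) (hy : ¬ p ∣ orderOf y) :
    ∑ χ : IrrCharacter G,
        blockPart e (fun c : Subgroup.centralizer ({x} : Set G) => (χ : G → ℂ) (x * (c : G))) y
        * conj (blockPart e
          (fun c : Subgroup.centralizer ({x} : Set G) => (χ : G → ℂ) (x * (c : G))) y)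
      = ∑ ψ : IrrCharacter (Subgroup.centralizer ({x} : Set G)), e.indicator
          (fun ψ => (ψ : Subgroup.centralizer ({x} : Set G) → ℂ) y
            * conj ((ψ : Subgroup.centralizer ({x} : Set G) → ℂ) y)) ψ := by
  classical
  haveI := Fintype.ofFinite (Subgroup.centralizer ({x} : Set G))
  have step1 : ∀ y' : Subgroup.centralizer ({x} : Set G), ¬ p ∣ orderOf y' →
      ∑ χ : IrrCharacter G, conj ((χ : G → ℂ) (x * (y' : G))) * blockPart e
          (fun c : Subgroup.centralizer ({x} : Set G) => (χ : G → ℂ) (x * (c : G))) y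
        = ∑ ψ : IrrCharacter (Subgroup.centralizer ({x} : Set G)),
          conj ((ψ : Subgroup.centralizer ({x} : Set G) → ℂ) y')
            * blockPart e (ψ : Subgroup.centralizer ({x} : Set G) → ℂ) y := by
    intro y' hy'
    exact blockPart_transfer hM he (fun χ : IrrCharacter G => conj ((χ : G → ℂ) (x * (y' : G))))
      (fun χ : IrrCharacter G =>
        fun c : Subgroup.centralizer ({x} : Set G) => (χ : G → ℂ) (x * (c : G)))
      (fun ψ : IrrCharacter (Subgroup.centralizer ({x} : Set G)) =>
        conj ((ψ : Subgroup.centralizer ({x} : Set G) → ℂ) y'))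
      (fun ψ => (ψ : Subgroup.centralizer ({x} : Set G) → ℂ))
      (fun c hc => section_column hM.1 hx c y' hc hy') y hy
  have step2 : ∀ y' : Subgroup.centralizer ({x} : Set G), ¬ p ∣ orderOf y' →
      ∑ χ : IrrCharacter G, conj (blockPart e
          (fun c : Subgroup.centralizer ({x} : Set G) => (χ : G → ℂ) (x * (c : G))) y)
          * (χ : G → ℂ) (x * (y' : G))
        = ∑ ψ : IrrCharacter (Subgroup.centralizer ({x} : Set G)),
          conj (blockPart e (ψ : Subgroup.centralizer ({x} : Set G) → ℂ) y)
            * (ψ : Subgroup.centralizer ({x} : Set G) → ℂ) y' := by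
    intro y' hy'
    have := congrArg conj (step1 y' hy')
    rw [map_sum, map_sum] at this
    simp only [map_mul, Complex.conj_conj] at this
    rw [Finset.sum_congr rfl (fun χ _ => mul_comm _ _), this]
    exact Finset.sum_congr rfl (fun ψ _ => mul_comm _ _)
  have step3 := blockPart_transfer hM he
    (fun χ : IrrCharacter G => conj (blockPart e
          (fun c : Subgroup.centralizer ({x} : Set G) => (χ : G → ℂ) (x * (c : G))) y))
    (fun χ : IrrCharacter G =>
        fun c : Subgroup.centralizer ({x} : Set G) => (χ : G → ℂ) (x * (c : G)))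
    (fun ψ : IrrCharacter (Subgroup.centralizer ({x} : Set G)) =>
        conj (blockPart e (ψ : Subgroup.centralizer ({x} : Set G) → ℂ) y))
    (fun ψ => (ψ : Subgroup.centralizer ({x} : Set G) → ℂ))
    (fun c hc => step2 c hc) y hy
  rw [Finset.sum_congr rfl (fun χ _ => mul_comm _ _), step3]
  apply Finset.sum_congr rfl
  intro ψ _
  rw [blockPart_irr]
  by_cases hψ : ψ ∈ e
  · rw [Set.indicator_of_mem hψ, Set.indicator_of_mem hψ, mul_comm]
  · rw [Set.indicator_of_notMem hψ, Set.indicator_of_notMem hψ, mul_zero]

/-- Brauer's formula: the contributions of a subsection `(x, e)` add up to `|C| l(e)`. -/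
theorem subsection_sum [Fintype G] [Fintype (IrrCharacter G)] (hM : IsPModular p M) {x : G}
    [Fintype (Subgroup.centralizer ({x} : Set G))]
    (hx : ∃ k : ℕ, orderOf x = p ^ k) {B : Set (IrrCharacter G)}
    {e : Set (IrrCharacter (Subgroup.centralizer ({x} : Set G)))}
    (hind : IsInducedBlock M (Subgroup.centralizer ({x} : Set G)) e B) :
    ∑ χ : IrrCharacter G, B.indicator (fun χ => ∑ s : Subgroup.centralizer ({x} : Set G),
        pRegularPart p (blockPart e
          (fun c : Subgroup.centralizer ({x} : Set G) => (χ : G → ℂ) (x * (c : G)))) s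
        * conj (blockPart e
          (fun c : Subgroup.centralizer ({x} : Set G) => (χ : G → ℂ) (x * (c : G))) s)) χ
      = (Nat.card (Subgroup.centralizer ({x} : Set G)) : ℂ) * (blockRank p e : ℂ) := by
  classical
  haveI := hM.2.1.isPrime
  haveI : Fact p.Prime := ⟨hM.1⟩
  haveI := Fintype.ofFinite (IrrCharacter (Subgroup.centralizer ({x} : Set G)))
  have he : IsBlockUnion M e := isBlockUnion_of_isPBlock hind.1
  have hcard : (Nat.card (Subgroup.centralizer ({x} : Set G)) : ℂ) ≠ 0 := by
    exact_mod_cast Nat.card_pos.ne'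
  have h1 : ∀ χ : IrrCharacter G, B.indicator (fun χ => ∑ s : Subgroup.centralizer ({x} : Set G),
        pRegularPart p (blockPart e
          (fun c : Subgroup.centralizer ({x} : Set G) => (χ : G → ℂ) (x * (c : G)))) s
        * conj (blockPart e
          (fun c : Subgroup.centralizer ({x} : Set G) => (χ : G → ℂ) (x * (c : G))) s)) χ
      = ∑ s : Subgroup.centralizer ({x} : Set G),
        pRegularPart p (blockPart e
          (fun c : Subgroup.centralizer ({x} : Set G) => (χ : G → ℂ) (x * (c : G)))) s
        * conj (blockPart e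
          (fun c : Subgroup.centralizer ({x} : Set G) => (χ : G → ℂ) (x * (c : G))) s) := by
    intro χ
    by_cases hχ : χ ∈ B
    · rw [Set.indicator_of_mem hχ]
    · rw [Set.indicator_of_notMem hχ]
      symm
      apply Finset.sum_eq_zero
      intro s _
      rw [pRegularPart_eq_indicator]
      by_cases hs : p ∣ orderOf s
      · rw [Set.indicator_of_notMem
          (s := {x_1 : Subgroup.centralizer ({x} : Set G) | ¬ p ∣ orderOf x_1}) (fun h => h hs),
          zero_mul]
      · have h0 : blockPart e
            (fun c : Subgroup.centralizer ({x} : Set G) => (χ : G → ℂ) (x * (c : G))) s = 0 := by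
          apply Cfsg.Agent.S0923.result p M hM x hx (blockOf M (χ : G → ℂ)) ⟨χ, rfl⟩ χ
            (self_mem_blockOf χ) e hind.1 _ s hs
          intro hind'
          apply hχ
          rw [induced_unique hind hind']
          exact self_mem_blockOf χ
        rw [h0, map_zero, mul_zero]
  rw [Finset.sum_congr rfl (fun χ _ => h1 χ), Finset.sum_comm, blockRank_eq_sum hM he,
    Finset.mul_sum]
  have h2 : ∀ s : Subgroup.centralizer ({x} : Set G), ∑ χ : IrrCharacter G,
        pRegularPart p (blockPart e
          (fun c : Subgroup.centralizer ({x} : Set G) => (χ : G → ℂ) (x * (c : G)))) s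
        * conj (blockPart e
          (fun c : Subgroup.centralizer ({x} : Set G) => (χ : G → ℂ) (x * (c : G))) s)
      = ∑ ψ : IrrCharacter (Subgroup.centralizer ({x} : Set G)), e.indicator
          (fun ψ => pRegularPart p (ψ : Subgroup.centralizer ({x} : Set G) → ℂ) s
            * conj ((ψ : Subgroup.centralizer ({x} : Set G) → ℂ) s)) ψ := by
    intro s
    by_cases hs : p ∣ orderOf s
    · rw [Finset.sum_eq_zero, Finset.sum_eq_zero]
      · intro ψ _
        by_cases hψ : ψ ∈ e
        · rw [Set.indicator_of_mem hψ, pRegularPart_eq_indicator, Set.indicator_of_notMem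
            (s := {x_1 : Subgroup.centralizer ({x} : Set G) | ¬ p ∣ orderOf x_1}) (fun h => h hs),
            zero_mul]
        · rw [Set.indicator_of_notMem hψ]
      · intro χ _
        rw [pRegularPart_eq_indicator, Set.indicator_of_notMem
            (s := {x_1 : Subgroup.centralizer ({x} : Set G) | ¬ p ∣ orderOf x_1}) (fun h => h hs),
            zero_mul]
    · have e1 : ∑ ψ : IrrCharacter (Subgroup.centralizer ({x} : Set G)), e.indicator
          (fun ψ => pRegularPart p (ψ : Subgroup.centralizer ({x} : Set G) → ℂ) s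
            * conj ((ψ : Subgroup.centralizer ({x} : Set G) → ℂ) s)) ψ
          = ∑ ψ : IrrCharacter (Subgroup.centralizer ({x} : Set G)), e.indicator
          (fun ψ => (ψ : Subgroup.centralizer ({x} : Set G) → ℂ) s
            * conj ((ψ : Subgroup.centralizer ({x} : Set G) → ℂ) s)) ψ := by
        apply Finset.sum_congr rfl
        intro ψ _
        by_cases hψ : ψ ∈ e
        · rw [Set.indicator_of_mem hψ, Set.indicator_of_mem hψ, pRegularPart_eq_indicator,
            Set.indicator_of_mem
            (s := {x_1 : Subgroup.centralizer ({x} : Set G) | ¬ p ∣ orderOf x_1}) hs]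
        · rw [Set.indicator_of_notMem hψ, Set.indicator_of_notMem hψ]
      rw [e1, ← subsection_norm hM hx he s hs]
      apply Finset.sum_congr rfl
      intro χ _
      rw [pRegularPart_eq_indicator, Set.indicator_of_mem
          (s := {x_1 : Subgroup.centralizer ({x} : Set G) | ¬ p ∣ orderOf x_1}) hs]
  rw [Finset.sum_congr rfl (fun s _ => h2 s), Finset.sum_comm]
  apply Finset.sum_congr rfl
  intro ψ _
  by_cases hψ : ψ ∈ e
  · simp only [Set.indicator_of_mem hψ]
    rw [classInner, ← mul_assoc, mul_inv_cancel₀ hcard, one_mul]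
  · simp only [Set.indicator_of_notMem hψ, mul_zero, Finset.sum_const_zero]

end Cfsg.Agent.Lib.Helper24
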