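import Cfsg.Agent.Lib.Helper24.CanonA
import Cfsg.Agent.Lib.Helper7.BlockNormal
import Cfsg.Agent.Lib.Helper7.BlockFirst
import Cfsg.Agent.S4666

set_option autoImplicit false
set_option linter.style.haveILetI false
set_option linter.unusedSectionVars false
open Cfsg
open Cfsg.Agent.Lib.Helper7
open scoped ComplexConjugate

namespace Cfsg.Agent.Lib.Helper24

universe u
variable {G : Type u} [Group G] {M : Ideal AlgInt} {p : ℕ}

theorem sup_centralizer_of_le_center {Z : Subgroup G} (hZ : Z ≤ Subgroup.center G) :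
    Z ⊔ Subgroup.centralizer (Z : Set G) = ⊤ := by
  have : Subgroup.centralizer (Z : Set G) = ⊤ := by
    rw [eq_top_iff]
    intro g _
    rw [Subgroup.mem_centralizer_iff]
    intro z hz
    exact (Subgroup.mem_center_iff.1 (hZ hz) g).symm
  rw [this, sup_top_eq]

/-- a normal defect group is the only defect group -/
theorem defectGroup_eq_of_normal [Finite G] (hM : IsPModular p M) {B : Set (IrrCharacter G)}
    (hB : IsPBlock M B) {P : Subgroup G} [P.Normal] (hP : IsDefectGroup p M B P)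
    {D : Subgroup G} (hD : IsDefectGroup p M B D) : D = P := by
  have hPp : IsPGroup p P := IsPGroup.of_card (card_defectGroup hM hB hP)
  have hle := normal_le_defectGroup hM hB hD P hPp
  exact (Subgroup.eq_of_le_of_card_ge hle (by
    rw [card_defectGroup hM hB hD, card_defectGroup hM hB hP])).symm

theorem vanish_of_normal_defect [Finite G] (hM : IsPModular p M) {B : Set (IrrCharacter G)}
    (hB : IsPBlock M B) {P : Subgroup G} [P.Normal] (hP : IsDefectGroup p M B P)
    {χ : IrrCharacter G} (hχ : χ ∈ B) (g x : G) (hx : IsPPart p g x) (hxP : x ∉ P) :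
    (χ : G → ℂ) g = 0 := by
  apply char_eq_zero_of_pPart_not_mem hM hB hχ hx
  intro D hD
  rw [defectGroup_eq_of_normal hM hB hP hD]
  exact hxP

theorem central_mul_conj [Finite G] {Z : Subgroup G} (hZ : Z ≤ Subgroup.center G)
    (χ : IrrCharacter G) {z : G} (hz : z ∈ Z) :
    (χ : G → ℂ) z * conj ((χ : G → ℂ) z) = (χ : G → ℂ) 1 * (χ : G → ℂ) 1 := by
  have hG := sup_centralizer_of_le_center hZ
  have hc : z⁻¹ ∈ Subgroup.centralizer (Z : Set G) := by
    rw [Subgroup.mem_centralizer_iff]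
    intro w _
    exact Subgroup.mem_center_iff.1 (hZ (inv_mem hz)) w
  have h1 := char_mul_of_sup_centralizer hG χ hz hc
  rw [mul_inv_cancel, char_inv_eq_conj (isCharacter_of_irr χ.2)] at h1
  exact h1.symm

/-- regular norm of a character vanishing off `Z × (regular elements)` -/
theorem regnorm_eq_central [Fintype G] (hp : p.Prime) {Z : Subgroup G} (hZp : IsPGroup p Z)
    (hZ : Z ≤ Subgroup.center G) (χ : IrrCharacter G)
    (hvan : ∀ g x : G, IsPPart p g x → x ∉ Z → (χ : G → ℂ) g = 0) :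
    classInner (regPart p (χ : G → ℂ)) (χ : G → ℂ) = (((Nat.card Z : ℝ)⁻¹ : ℝ) : ℂ) := by
  classical
  haveI : Fintype Z := Fintype.ofFinite _
  have h1 := classInner_factor hp hZp (sup_centralizer_of_le_center hZ) χ χ hvan
  rw [classInner_irr_self χ.2, Finset.sum_congr rfl (fun u _ => central_mul_conj hZ χ u.2),
    Finset.sum_const, Finset.card_univ, nsmul_eq_mul, ← Nat.card_eq_fintype_card] at h1
  have h0 := irr_apply_one_ne_zero χ.2
  have hc : (Nat.card Z : ℂ) ≠ 0 := by exact_mod_cast Nat.card_pos.ne'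
  push_cast
  field_simp
  have h2 : ((χ : G → ℂ) 1 * (χ : G → ℂ) 1) * (1 - (Nat.card Z : ℂ)
      * classInner (regPart p (χ : G → ℂ)) (χ : G → ℂ)) = 0 := by
    linear_combination h1
  rcases mul_eq_zero.1 h2 with h3 | h3
  · exact absurd h3 (mul_ne_zero h0 h0)
  · linear_combination (-1 : ℂ) * h3

/-- in a block with a central defect group, a height zero member agrees with every member
on the regular elements -/
theorem central_regular_eq_aux [Fintype G] (hM : IsPModular p M) {B : Set (IrrCharacter G)}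
    (hB : IsPBlock M B) {Z : Subgroup G} (hZ : Z ≤ Subgroup.center G)
    (hD : IsDefectGroup p M B Z) {χ ψ : IrrCharacter G} (hχ : χ ∈ B)
    (h0 : blockHeight p B (χ : G → ℂ) = 0) (hψ : ψ ∈ B) (y : G) (hy : ¬ p ∣ orderOf y) :
    (χ : G → ℂ) y = (ψ : G → ℂ) y := by
  haveI : Fact p.Prime := ⟨hM.1⟩
  haveI : Z.Normal := normal_of_sup_centralizer (sup_centralizer_of_le_center hZ)
  have hcard := card_defectGroup hM hB hD
  have hZp : IsPGroup p Z := IsPGroup.of_card hcard
  have h1 := regnorm_eq_central hM.1 hZp hZ χ (vanish_of_normal_defect hM hB hD hχ)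
  have h2 := regnorm_eq_central hM.1 hZp hZ ψ (vanish_of_normal_defect hM hB hD hψ)
  obtain ⟨k, hk⟩ := Cfsg.Agent.S4666.exists_int_defect hM hB χ ψ hψ
  have hne := contrib_ne_zero hM hB hχ h0 hψ
  have hpp : (0 : ℝ) < (p : ℝ) ^ blockDefect p B := by
    have : (0 : ℝ) < (p : ℝ) := by exact_mod_cast hM.1.pos
    positivity
  have hppC : ((p : ℂ) ^ blockDefect p B) ≠ 0 := by
    have : (p : ℂ) ≠ 0 := by exact_mod_cast hM.1.pos.ne'
    exact pow_ne_zero _ this
  have hk0 : k ≠ 0 := by
    rintro rfl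
    rw [Int.cast_zero] at hk
    rcases mul_eq_zero.1 hk with h | h
    · exact hppC h
    · exact hne h
  have h3 : classInner (regPart p (χ : G → ℂ)) (ψ : G → ℂ)
      = (((k : ℝ) / (p : ℝ) ^ blockDefect p B : ℝ) : ℂ) := by
    push_cast
    rw [eq_div_iff hppC, mul_comm]
    exact hk
  have hcR : (Nat.card Z : ℝ) = (p : ℝ) ^ blockDefect p B := by
    rw [hcard]; push_cast; rfl
  refine regular_eq_of_norm_le χ ψ h1 h2 h3 le_rfl le_rfl ?_ y hy
  rw [hcR, abs_div, abs_of_pos hpp, inv_eq_one_div]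
  apply div_le_div_of_nonneg_right _ hpp.le
  have : (1 : ℤ) ≤ |k| := Int.one_le_abs hk0
  exact_mod_cast this

theorem central_regular_eq [Fintype G] (hM : IsPModular p M) {B : Set (IrrCharacter G)}
    (hB : IsPBlock M B) {Z : Subgroup G} (hZ : Z ≤ Subgroup.center G)
    (hD : IsDefectGroup p M B Z) {χ ψ : IrrCharacter G} (hχ : χ ∈ B)
    (hψ : ψ ∈ B) (y : G) (hy : ¬ p ∣ orderOf y) :
    (χ : G → ℂ) y = (ψ : G → ℂ) y := by
  haveI := hM.2.1.isPrime
  obtain ⟨η, hη, h⟩ := exists_height_zero hB p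
  have h0 : blockHeight p B (η : G → ℂ) = 0 := by rw [blockHeight, h]; simp
  rw [← central_regular_eq_aux hM hB hZ hD hη h0 hχ y hy,
    ← central_regular_eq_aux hM hB hZ hD hη h0 hψ y hy]

end Cfsg.Agent.Lib.Helper24
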