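import Cfsg.Agent.Lib.Helper7.BlockPCons2
import Cfsg.Agent.Lib.Helper7.BlockNormal
import Cfsg.Agent.Lib.Helper1.Fitting

set_option autoImplicit false
set_option linter.style.haveILetI false
set_option linter.unusedSectionVars false
open Cfsg
open Cfsg.Agent.Lib.Helper7
open scoped ComplexConjugate

namespace Cfsg.Agent.Lib.Helper24

universe u
variable {G : Type u} [Group G] {M : Ideal AlgInt} {p : ℕ}

theorem isPConstrained_of_isSolvable [Finite G] [Group.IsSolvable G] [Fact p.Prime] :
    IsPConstrained p G :=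
  Cfsg.Agent.Lib.Helper5.isPConstrained_iff.2
    (Cfsg.Agent.Lib.Helper1.centralizer_pCore_le p
      Cfsg.Agent.Lib.Helper5.pPrimeCore_quot_pPrimeCore)

/-- the inner product of a restriction with the trivial character of a normal subgroup -/
theorem classInner_restrict_one_ne_zero_iff [Fintype G] (N : Subgroup G) [N.Normal] [Fintype N]
    (χ : IrrCharacter G) :
    classInner (fun n : N => (χ : G → ℂ) n) (fun _ => (1 : ℂ)) ≠ 0
      ↔ ∀ u ∈ N, (χ : G → ℂ) u = (χ : G → ℂ) 1 := by
  classical
  have hN0 : (Nat.card N : ℂ) ≠ 0 := by exact_mod_cast Nat.card_pos.ne'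
  have hinner : classInner (fun n : N => (χ : G → ℂ) n) (fun _ => (1 : ℂ))
        = (Nat.card N : ℂ)⁻¹ * ∑ g : G, (if g ∈ N then (1 : ℂ) else 0) * (χ : G → ℂ) g := by
    rw [classInner]
    congr 1
    simp only [ite_mul, one_mul, zero_mul]
    rw [← Finset.sum_filter, Finset.sum_subtype (p := (· ∈ N)) _ (by simp)]
    apply Finset.sum_congr rfl
    intro n _
    simp
  rw [hinner]
  constructor
  · intro h u hu
    exact irr_eq_one_of_sum_ne_zero χ.2 N (right_ne_zero_of_mul h) hu
  · intro h
    have : ∑ g : G, (if g ∈ N then (1 : ℂ) else 0) * (χ : G → ℂ) g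
        = (Nat.card N : ℂ) * (χ : G → ℂ) 1 := by
      have hcardN : ∑ g : G, (if g ∈ N then (1 : ℂ) else 0) = (Nat.card N : ℂ) := by
        rw [Finset.sum_boole]
        congr 1
        rw [Nat.card_eq_fintype_card, Fintype.card_subtype]
      rw [← hcardN, Finset.sum_mul]
      apply Finset.sum_congr rfl
      intro g _
      by_cases hg : g ∈ N
      · rw [if_pos hg, h g hg]
      · rw [if_neg hg, zero_mul, zero_mul]
    rw [this, inv_mul_cancel_left₀ hN0]
    exact irr_apply_one_ne_zero χ.2

/-- in a `p`-constrained group the principal block consists of the characters with `O_{p'}(G)` in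
the kernel -/
theorem mem_principalBlock_iff_of_pConstrained [Finite G] [Fact p.Prime] (hM : IsPModular p M)
    (hcons : IsPConstrained p G) (χ : IrrCharacter G) :
    χ ∈ principalBlock M G ↔ ∀ u ∈ pPrimeCore p G, (χ : G → ℂ) u = (χ : G → ℂ) 1 := by
  classical
  haveI := hM.2.1.isPrime
  haveI := Fintype.ofFinite G
  haveI : Fintype (pPrimeCore p G) := Fintype.ofFinite _
  obtain ⟨P0⟩ : Nonempty (Sylow p ↥(pPrimePCore p G)) := inferInstance
  have hQS : ¬ p ∣ ((P0 : Subgroup ↥(pPrimePCore p G)).map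
      (pPrimePCore p G).subtype).relIndex (pPrimePCore p G) := by
    have h1 : ((P0 : Subgroup ↥(pPrimePCore p G)).map
      (pPrimePCore p G).subtype).subgroupOf (pPrimePCore p G) = P0 :=
      Subgroup.comap_map_eq_self_of_injective (Subgroup.subtype_injective _) _
    unfold Subgroup.relIndex
    rw [h1]
    exact P0.not_dvd_index
  obtain ⟨θ, hθ⟩ : ∃ θ : IrrCharacter (pPrimeCore p G),
      (θ : pPrimeCore p G → ℂ) = fun _ => 1 := ⟨⟨_, isIrrCharacter_one⟩, rfl⟩
  obtain ⟨B, hB, hmem, -⟩ := fong_pconstrained hM (pPrimeCore p G) rfl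
    (Subgroup.map_subtype_le _) (P0.2.map _) hQS (hcons P0) θ
    (fun g => Subtype.ext (by
      ext n
      simp [conjIrr, Cfsg.Agent.Lib.Helper25.conjFun, hθ]))
  rw [hθ] at hmem
  simp only [classInner_restrict_one_ne_zero_iff] at hmem
  obtain ⟨one, hone1⟩ : ∃ one : IrrCharacter G, (one : G → ℂ) = fun _ => 1 :=
    ⟨⟨_, isIrrCharacter_one⟩, rfl⟩
  have hone : one ∈ B := (hmem one).2 (fun u _ => by rw [hone1])
  have hBp : B = principalBlock M G := by
    rw [isPBlock_eq_blockOf hB hone, hone1, principalBlock]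
  rw [← hBp]
  exact hmem χ

end Cfsg.Agent.Lib.Helper24
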