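import Mathlib
import Cfsg.Agent.Lib.Helper29.Zass
import Cfsg.Agent.Lib.Helper20.Derangement
import Cfsg.Agent.S3704

set_option autoImplicit false
open Cfsg

namespace Cfsg.Agent.Lib.Helper24.Zass3

open Cfsg.Agent.Lib.Helper29.Zass

variable {G Ω : Type*} [Group G] [MulAction G Ω]

theorem card_group [Finite G] [Fintype Ω] (hZ : Cfsg.IsZassenhausGroup G Ω) {a b : Ω}
    (hab : a ≠ b) :
    Nat.card G = Fintype.card Ω * (Fintype.card Ω - 1) *
      Nat.card ↥(MulAction.stabilizer G a ⊓ MulAction.stabilizer G b : Subgroup G) := by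
  classical
  have hstab : MulAction.stabilizer G ((a, b) : Ω × Ω) =
      MulAction.stabilizer G a ⊓ MulAction.stabilizer G b := by
    ext g
    simp [MulAction.mem_stabilizer_iff, Subgroup.mem_inf, Prod.ext_iff]
  have horb : MulAction.orbit G ((a, b) : Ω × Ω) = {p | p.1 ≠ p.2} := by
    ext ⟨c, d⟩
    constructor
    · rintro ⟨g, hg⟩
      have e1 : g • a = c := congrArg Prod.fst hg
      have e2 : g • b = d := congrArg Prod.snd hg
      show c ≠ d
      rw [← e1, ← e2]
      exact fun h => hab (smul_left_cancel g h)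
    · intro hcd
      obtain ⟨g, h1, h2⟩ := two_trans hZ hab hcd
      exact ⟨g, by show (g • a, g • b) = (c, d); rw [h1, h2]⟩
  have h1 := MulAction.index_stabilizer G ((a, b) : Ω × Ω)
  rw [hstab, horb] at h1
  have h2 : ({p : Ω × Ω | p.1 ≠ p.2} : Set (Ω × Ω)).ncard =
      Fintype.card Ω * (Fintype.card Ω - 1) := by
    rw [Set.ncard_eq_toFinset_card']
    have h3 : ({p : Ω × Ω | p.1 ≠ p.2} : Set (Ω × Ω)).toFinset =
        (Finset.univ : Finset Ω).offDiag := by
      ext ⟨c, d⟩
      simp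
    rw [h3, Finset.offDiag_card, Finset.card_univ, Nat.mul_sub, mul_one]
  rw [← Subgroup.index_mul_card
    (MulAction.stabilizer G a ⊓ MulAction.stabilizer G b : Subgroup G), h1, h2]

theorem card_fixedBy_prod (g : G) :
    Nat.card (MulAction.fixedBy (Ω × Ω) g) =
      Nat.card (MulAction.fixedBy Ω g) * Nat.card (MulAction.fixedBy Ω g) := by
  rw [← Nat.card_prod]
  apply Nat.card_congr
  exact
    { toFun := fun p => (⟨p.1.1, congrArg Prod.fst p.2⟩, ⟨p.1.2, congrArg Prod.snd p.2⟩)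
      invFun := fun p => ⟨(p.1.1, p.2.1), Prod.ext p.1.2 p.2.2⟩
      left_inv := fun _ => rfl
      right_inv := fun _ => rfl }

open Classical in
theorem count_fpf [Fintype G] [Fintype Ω] (hZ : Cfsg.IsZassenhausGroup G Ω) {a b : Ω}
    (hab : a ≠ b) :
    (Nat.card G : ℤ) = ((Fintype.card Ω : ℤ) - 1) * ((Fintype.card Ω : ℤ) - 2) +
      2 * ((Finset.univ.filter (fun g : G => ∀ c : Ω, g • c ≠ c)).card : ℤ) := by
  have htr : MulAction.IsPretransitive G Ω :=
    @MulAction.isPretransitive_of_is_two_pretransitive _ _ _ _ hZ.2.1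
  have hne : Nonempty Ω := ⟨a⟩
  have h1 := Cfsg.Agent.Lib.Helper20.burnside_natCard G Ω
  rw [Cfsg.Agent.S3704.card_orbits_one, one_mul] at h1
  have h2 := Cfsg.Agent.Lib.Helper20.burnside_natCard G (Ω × Ω)
  rw [Cfsg.Agent.S3704.card_orbits_two hZ.2.1 hab] at h2
  simp only [card_fixedBy_prod] at h2
  have h1' : ∑ g : G, (Nat.card (MulAction.fixedBy Ω g) : ℤ) = (Nat.card G : ℤ) := by
    exact_mod_cast h1
  have h2' : ∑ g : G, (Nat.card (MulAction.fixedBy Ω g) : ℤ) * (Nat.card (MulAction.fixedBy Ω g) : ℤ)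
      = 2 * (Nat.card G : ℤ) := by
    exact_mod_cast h2
  have h3 : ∑ g : G, ((Nat.card (MulAction.fixedBy Ω g) : ℤ) - 1) *
      ((Nat.card (MulAction.fixedBy Ω g) : ℤ) - 2) = (Nat.card G : ℤ) := by
    have e : ∀ g : G, ((Nat.card (MulAction.fixedBy Ω g) : ℤ) - 1) *
      ((Nat.card (MulAction.fixedBy Ω g) : ℤ) - 2) =
      (Nat.card (MulAction.fixedBy Ω g) : ℤ) * (Nat.card (MulAction.fixedBy Ω g) : ℤ) -
        3 * (Nat.card (MulAction.fixedBy Ω g) : ℤ) + 2 := fun g => by ring
    simp only [e]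
    rw [Finset.sum_add_distrib, Finset.sum_sub_distrib, ← Finset.mul_sum, h1', h2',
      Finset.sum_const, Finset.card_univ, ← Nat.card_eq_fintype_card]
    simp
    ring
  have h4 : ∀ g : G, ((Nat.card (MulAction.fixedBy Ω g) : ℤ) - 1) *
      ((Nat.card (MulAction.fixedBy Ω g) : ℤ) - 2) =
      (if g = 1 then ((Fintype.card Ω : ℤ) - 1) * ((Fintype.card Ω : ℤ) - 2) else 0) +
      2 * (if ∀ c : Ω, g • c ≠ c then 1 else 0) := by
    intro g
    by_cases hg : g = 1
    · subst hg
      have e1 : Nat.card (MulAction.fixedBy Ω (1 : G)) = Fintype.card Ω := by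
        rw [MulAction.fixedBy_one_eq_univ, Nat.card_coe_set_eq, Set.ncard_univ, Nat.card_eq_fintype_card]
      have e2 : ¬ ∀ c : Ω, (1 : G) • c ≠ c := fun h => h a (one_smul _ _)
      rw [e1, if_pos rfl, if_neg e2]
      ring
    · rw [if_neg hg]
      have hle := card_fixedBy_le hZ hg
      by_cases hf : ∀ c : Ω, g • c ≠ c
      · have e1 : Nat.card (MulAction.fixedBy Ω g) = 0 := by
          have : IsEmpty (MulAction.fixedBy Ω g) := ⟨fun c => hf c.1 c.2⟩
          exact Nat.card_of_isEmpty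
        rw [e1, if_pos hf]
        norm_num
      · rw [if_neg hf]
        push Not at hf
        obtain ⟨c, hc⟩ := hf
        have : Nonempty (MulAction.fixedBy Ω g) := ⟨⟨c, hc⟩⟩
        have hpos : 0 < Nat.card (MulAction.fixedBy Ω g) := Nat.card_pos
        have h5 : Nat.card (MulAction.fixedBy Ω g) = 1 ∨ Nat.card (MulAction.fixedBy Ω g) = 2 := by
          omega
        rcases h5 with h5 | h5 <;> rw [h5] <;> norm_num
  simp only [h4] at h3
  rw [Finset.sum_add_distrib, Finset.sum_ite_eq' Finset.univ (1 : G), if_pos (Finset.mem_univ _),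
    ← Finset.mul_sum, Finset.sum_boole] at h3
  exact h3.symm

end Cfsg.Agent.Lib.Helper24.Zass3
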