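import Mathlib
import Cfsg.Agent.Lib.Helper24.Zass3
import Cfsg.Agent.Lib.Helper29.Zass2

set_option autoImplicit false
open Cfsg

namespace Cfsg.Agent.Lib.Helper24.Zass4

open Cfsg.Agent.Lib.Helper29.Zass Cfsg.Agent.Lib.Helper24.Zass3

theorem transfer_pow {G : Type*} [Group G] (E : Subgroup G) [E.FiniteIndex] {A : Type*}
    [CommGroup A] (φ : E →* A) (y : E)
    (key : ∀ (k : ℕ) (g₀ : G) (hk : g₀⁻¹ * (y : G) ^ k * g₀ ∈ E),
      φ ⟨g₀⁻¹ * (y : G) ^ k * g₀, hk⟩ = φ y ^ k) :
    MonoidHom.transfer φ (y : G) = φ y ^ E.index := by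
  have : Fintype (Quotient (MulAction.orbitRel (Subgroup.zpowers (y : G)) (G ⧸ E))) :=
    Fintype.ofFinite _
  rw [Subgroup.index_eq_sum_minimalPeriod E (y : G), ← Finset.prod_pow_eq_pow_sum,
    MonoidHom.transfer_eq_prod_quotient_orbitRel_zpowers_quot]
  apply Finset.prod_congr rfl
  intros
  apply key

variable {G Ω : Type*} [Group G] [MulAction G Ω]

theorem index_two [Finite G] [Fintype Ω] (hZ : Cfsg.IsZassenhausGroup G Ω) {a b : Ω}
    (hab : a ≠ b) :
    (MulAction.stabilizer G a ⊓ MulAction.stabilizer G b : Subgroup G).index =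
      Fintype.card Ω * (Fintype.card Ω - 1) := by
  have h1 := card_group hZ hab
  rw [← Subgroup.index_mul_card
    (MulAction.stabilizer G a ⊓ MulAction.stabilizer G b : Subgroup G)] at h1
  exact Nat.eq_of_mul_eq_mul_right Nat.card_pos h1

theorem card_two_eq [Finite G] [Fintype Ω] (hZ : Cfsg.IsZassenhausGroup G Ω) {a b c d : Ω}
    (hab : a ≠ b) (hcd : c ≠ d) :
    Nat.card ↥(MulAction.stabilizer G c ⊓ MulAction.stabilizer G d : Subgroup G) =
      Nat.card ↥(MulAction.stabilizer G a ⊓ MulAction.stabilizer G b : Subgroup G) := by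
  have h1 := card_group hZ hab
  have h2 := card_group hZ hcd
  rw [h1] at h2
  have hpos : 0 < Fintype.card Ω * (Fintype.card Ω - 1) := by
    have : 1 < Fintype.card Ω := Fintype.one_lt_card_iff.mpr ⟨a, b, hab⟩
    exact Nat.mul_pos (by omega) (by omega)
  exact (Nat.eq_of_mul_eq_mul_left hpos h2).symm

theorem card_dvd [Finite G] [Fintype Ω] (hZ : Cfsg.IsZassenhausGroup G Ω) {a b : Ω}
    (hab : a ≠ b) :
    Nat.card ↥(MulAction.stabilizer G a ⊓ MulAction.stabilizer G b : Subgroup G) ∣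
      Fintype.card Ω - 2 := by
  classical
  have := Fintype.ofFinite G
  have h1 := Cfsg.Agent.Lib.Helper20.burnside_natCard
    ↥(MulAction.stabilizer G a ⊓ MulAction.stabilizer G b : Subgroup G) Ω
  have hn2 : 2 ≤ Fintype.card Ω := Fintype.one_lt_card_iff.mpr ⟨a, b, hab⟩
  have h2 : ∀ g : ↥(MulAction.stabilizer G a ⊓ MulAction.stabilizer G b : Subgroup G),
      Nat.card (MulAction.fixedBy Ω g) = 2 + (if g = 1 then Fintype.card Ω - 2 else 0) := by
    intro g
    by_cases hg : g = 1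
    · subst hg
      rw [if_pos rfl, MulAction.fixedBy_one_eq_univ, Nat.card_coe_set_eq, Set.ncard_univ,
        Nat.card_eq_fintype_card]
      omega
    · rw [if_neg hg, add_zero]
      have hg' : (g : G) ≠ 1 := fun h => hg (Subtype.ext h)
      have hle : Nat.card (MulAction.fixedBy Ω g) ≤ 2 := card_fixedBy_le hZ hg'
      have hnt : Nontrivial (MulAction.fixedBy Ω g) :=
        ⟨⟨a, g.2.1⟩, ⟨b, g.2.2⟩, fun h => hab (congrArg Subtype.val h)⟩
      have := Finite.one_lt_card_iff_nontrivial.mpr hnt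
      omega
  simp only [h2] at h1
  rw [Finset.sum_add_distrib, Finset.sum_const, Finset.card_univ, Finset.sum_ite_eq' Finset.univ,
    if_pos (Finset.mem_univ _), smul_eq_mul, ← Nat.card_eq_fintype_card] at h1
  exact (Nat.dvd_add_right (Dvd.intro _ rfl)).mp (h1 ▸ Dvd.intro_left _ rfl)

theorem coprime_index [Finite G] [Fintype Ω] (hZ : Cfsg.IsZassenhausGroup G Ω) {a b : Ω}
    (hab : a ≠ b)
    (hodd : Odd (Nat.card ↥(MulAction.stabilizer G a ⊓ MulAction.stabilizer G b : Subgroup G))) :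
    Nat.Coprime (MulAction.stabilizer G a ⊓ MulAction.stabilizer G b : Subgroup G).index
      (Nat.card ↥(MulAction.stabilizer G a ⊓ MulAction.stabilizer G b : Subgroup G)) := by
  rw [index_two hZ hab]
  obtain ⟨k, hk⟩ := card_dvd hZ hab
  have hn2 : 2 ≤ Fintype.card Ω := Fintype.one_lt_card_iff.mpr ⟨a, b, hab⟩
  obtain ⟨e, he⟩ : ∃ e, e =
    Nat.card ↥(MulAction.stabilizer G a ⊓ MulAction.stabilizer G b : Subgroup G) := ⟨_, rfl⟩
  rw [← he] at hk hodd ⊢
  have e1 : Fintype.card Ω = e * k + 2 := by omega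
  have e2 : Fintype.card Ω - 1 = e * k + 1 := by omega
  rw [e2, e1]
  apply Nat.Coprime.mul_left
  · have h2 : Nat.Coprime 2 e := Nat.coprime_two_left.mpr hodd
    simpa using h2
  · simp

theorem not_comm (hZ : Cfsg.IsZassenhausGroup G Ω) (h : ∀ x y : G, x * y = y * x) : False := by
  obtain ⟨g, hg, a, b, hab, ha, hb⟩ := hZ.2.2.2.1
  obtain ⟨c, hca, hcb⟩ := exists_third hZ hab
  obtain ⟨x, hx1, -⟩ := two_trans hZ hab hca
  apply hg
  apply three_fix hZ hab hcb.symm hca.symm ha hb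
  rw [← hx1, ← mul_smul, h g x, mul_smul, ha]

theorem hom_trivial [IsSimpleGroup G] (hZ : Cfsg.IsZassenhausGroup G Ω) {A : Type*} [CommGroup A]
    (V : G →* A) (g : G) : V g = 1 := by
  rcases V.normal_ker.eq_bot_or_eq_top with h | h
  · exfalso
    apply not_comm hZ
    intro x y
    apply (MonoidHom.ker_eq_bot_iff V).mp h
    rw [map_mul, map_mul, mul_comm]
  · have : g ∈ V.ker := by rw [h]; trivial
    exact this

/-- in a simple Zassenhaus group with two-point stabiliser `E` of odd order, no non-trivial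
homomorphism from `E` to a commutative group is invariant under the elements swapping the points -/
theorem no_invariant_hom [Finite G] [Fintype Ω] [IsSimpleGroup G]
    (hZ : Cfsg.IsZassenhausGroup G Ω) {a b : Ω} (hab : a ≠ b)
    (hodd : Odd (Nat.card ↥(MulAction.stabilizer G a ⊓ MulAction.stabilizer G b : Subgroup G)))
    {A : Type*} [CommGroup A]
    (φ : ↥(MulAction.stabilizer G a ⊓ MulAction.stabilizer G b : Subgroup G) →* A)
    (hinv : ∀ g : G, g • a = b → g • b = a →
      ∀ y : ↥(MulAction.stabilizer G a ⊓ MulAction.stabilizer G b : Subgroup G),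
      ∀ hy : g⁻¹ * (y : G) * g ∈ (MulAction.stabilizer G a ⊓ MulAction.stabilizer G b : Subgroup G),
      φ ⟨g⁻¹ * (y : G) * g, hy⟩ = φ y)
    (y : ↥(MulAction.stabilizer G a ⊓ MulAction.stabilizer G b : Subgroup G)) : φ y = 1 := by
  have aux : ∀ (z : ↥(MulAction.stabilizer G a ⊓ MulAction.stabilizer G b : Subgroup G)) (g₀ : G)
      (hz : g₀⁻¹ * (z : G) * g₀ ∈ (MulAction.stabilizer G a ⊓ MulAction.stabilizer G b : Subgroup G)),
      φ ⟨g₀⁻¹ * (z : G) * g₀, hz⟩ = φ z := by
    intro z g₀ hz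
    by_cases hz1 : z = 1
    · subst hz1
      congr 1
      exact Subtype.ext (by simp)
    · have hz1' : (z : G) ≠ 1 := fun h => hz1 (Subtype.ext h)
      have hga : (z : G) • (g₀ • a) = g₀ • a := by
        have h3 : (g₀⁻¹ * (z : G) * g₀) • a = a := hz.1
        rw [mul_smul, mul_smul, inv_smul_eq_iff] at h3
        exact h3
      have hgb : (z : G) • (g₀ • b) = g₀ • b := by
        have h3 : (g₀⁻¹ * (z : G) * g₀) • b = b := hz.2
        rw [mul_smul, mul_smul, inv_smul_eq_iff] at h3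
        exact h3
      rcases perm_pair hZ hz1' hab z.2.1 z.2.2 hga hgb with ⟨c1, c2⟩ | ⟨c1, c2⟩
      · have hg₀ : g₀ ∈ (MulAction.stabilizer G a ⊓ MulAction.stabilizer G b : Subgroup G) :=
          Subgroup.mem_inf.mpr ⟨c1, c2⟩
        have e1 : (⟨g₀⁻¹ * (z : G) * g₀, hz⟩ :
            ↥(MulAction.stabilizer G a ⊓ MulAction.stabilizer G b : Subgroup G)) =
            (⟨g₀, hg₀⟩ : ↥(MulAction.stabilizer G a ⊓ MulAction.stabilizer G b : Subgroup G))⁻¹ * z
              * ⟨g₀, hg₀⟩ := rfl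
        rw [e1, map_mul, map_mul, map_inv, mul_comm, mul_inv_cancel_left]
      · exact hinv g₀ c1 c2 z hz
  have h1 := transfer_pow _ φ y (by
    intro k g₀ hk
    have hk' : g₀⁻¹ * ((y ^ k : ↥(MulAction.stabilizer G a ⊓ MulAction.stabilizer G b : Subgroup G)) : G)
        * g₀ ∈ (MulAction.stabilizer G a ⊓ MulAction.stabilizer G b : Subgroup G) := by
      simpa using hk
    rw [← map_pow, ← aux (y ^ k) g₀ hk']
    congr 1)
  rw [hom_trivial hZ] at h1
  have h2 : φ y ^ Nat.card ↥(MulAction.stabilizer G a ⊓ MulAction.stabilizer G b : Subgroup G) = 1 := by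
    rw [← map_pow, pow_card_eq_one', map_one]
  have h3 := pow_gcd_eq_one.2 ⟨h1.symm, h2⟩
  rwa [Nat.Coprime.gcd_eq_one (coprime_index hZ hab hodd), pow_one] at h3

end Cfsg.Agent.Lib.Helper24.Zass4
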